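import Cfsg.Agent.H830.B57.Str

/-!
# S5717, D5: the restriction to a component (helper131)

`comp_dec_of`: if the product of the components is homogeneous on `V`, then `V` restricted to a
component `E i` is the sum of at least `2 ^ (t - 1)` copies of an irreducible module.
-/

set_option autoImplicit false

open Subgroup

namespace Cfsg.Agent.H131.B57

open Cfsg.Agent.H830.B57

section Gen

variable {k : Type*} [Field k] {U V : Type*} [AddCommGroup U] [Module k U] [AddCommGroup V] [Module k V]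

/-- A nonzero subspace with a property contains a minimal one. -/
theorem exists_irr [FiniteDimensional k U] (I : Submodule k U → Prop) (W : Submodule k U) (hW : I W)
    (h0 : W ≠ ⊥) : ∃ S ≤ W, I S ∧ S ≠ ⊥ ∧ ∀ S' ≤ S, I S' → S' = ⊥ ∨ S' = S := by
  classical
  have hex : ∃ d : ℕ, ∃ S ≤ W, I S ∧ S ≠ ⊥ ∧ Module.finrank k S = d := ⟨_, W, le_rfl, hW, h0, rfl⟩
  obtain ⟨S, hSW, hIS, hS0, hd⟩ := Nat.find_spec hex
  refine ⟨S, hSW, hIS, hS0, fun S' hS' hI' => ?_⟩
  by_cases h : S' = ⊥
  · exact Or.inl h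
  · right
    have h1 : Nat.find hex ≤ Module.finrank k S' := Nat.find_min' hex ⟨S', hS'.trans hSW, hI', h, rfl⟩
    exact Submodule.eq_of_le_of_finrank_le hS' (by rw [hd]; exact h1)

/-- A module which is the sum of images of an irreducible one is a direct sum of copies. -/
theorem dec {G : Type*} [FiniteDimensional k V] [FiniteDimensional k U] [Nontrivial U] (a : G → V →ₗ[k] V)
    (b : G → U →ₗ[k] U) (hirr : ∀ W : Submodule k U, (∀ g, ∀ w ∈ W, b g w ∈ W) → W = ⊥ ∨ W = ⊤)
    {ι : Type*} (f : ι → U →ₗ[k] V) (hf : ∀ i g u, a g (f i u) = f i (b g u))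
    (hsup : ⨆ i, LinearMap.range (f i) = ⊤) :
    ∃ (M : ℕ) (φ : V ≃ₗ[k] (Fin M → U)), ∀ g v j, φ (a g v) j = b g (φ v j) := by
  classical
  by_contra hcon
  have key : ∀ n : ℕ, ∃ F : (Fin n → U) →ₗ[k] V, Function.Injective F ∧
      ∀ g s, a g (F s) = F (fun j => b g (s j)) := by
    intro n
    induction n with
    | zero =>
      refine ⟨0, fun x y _ => Subsingleton.elim _ _, fun g s => ?_⟩
      simp
    | succ n ih =>
      obtain ⟨F, hF, hFc⟩ := ih
      have hns : ¬ Function.Surjective F := by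
        intro hs
        apply hcon
        refine ⟨n, (LinearEquiv.ofBijective F ⟨hF, hs⟩).symm, fun g v j => ?_⟩
        obtain ⟨s, rfl⟩ := hs v
        rw [hFc]
        have h1 : ∀ s, (LinearEquiv.ofBijective F ⟨hF, hs⟩).symm (F s) = s := fun s =>
          (LinearEquiv.ofBijective F ⟨hF, hs⟩).symm_apply_apply s
        rw [h1, h1]
      have hex : ∃ i, ¬ LinearMap.range (f i) ≤ LinearMap.range F := by
        by_contra h
        push Not at h
        apply hns
        rw [← LinearMap.range_eq_top, eq_top_iff, ← hsup]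
        exact iSup_le h
      obtain ⟨i, hi⟩ := hex
      have hK : (LinearMap.range F).comap (f i) = ⊥ := by
        rcases hirr ((LinearMap.range F).comap (f i)) (by
          intro g w hw
          obtain ⟨s, hs⟩ := hw
          refine ⟨fun j => b g (s j), ?_⟩
          rw [← hFc, hs, hf]) with h | h
        · exact h
        · exfalso
          apply hi
          rintro _ ⟨u, rfl⟩
          have : u ∈ (LinearMap.range F).comap (f i) := by rw [h]; trivial
          exact this
      refine ⟨F ∘ₗ LinearMap.funLeft k U Fin.succ + f i ∘ₗ LinearMap.proj 0, ?_, ?_⟩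
      · rw [← LinearMap.ker_eq_bot, eq_bot_iff]
        intro s hs
        rw [LinearMap.mem_ker] at hs
        have hs' : F (fun j => s j.succ) + f i (s 0) = 0 := hs
        have h0 : s 0 ∈ (LinearMap.range F).comap (f i) :=
          ⟨-(fun j => s j.succ), by rw [map_neg]; exact neg_eq_of_add_eq_zero_right hs'⟩
        rw [hK, Submodule.mem_bot] at h0
        rw [h0, map_zero, add_zero] at hs'
        have h1 := hF (hs'.trans (map_zero F).symm)
        rw [Submodule.mem_bot]
        funext j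
        refine Fin.cases h0 (fun j => ?_) j
        exact congrFun h1 j
      · intro g s
        show a g (F (fun j => s j.succ) + f i (s 0)) = F (fun j => b g (s j.succ)) + f i (b g (s 0))
        rw [map_add, hFc, hf]
  obtain ⟨F, hF, -⟩ := key (Module.finrank k V + 1)
  have h1 := LinearMap.finrank_le_finrank_of_injective hF
  rw [Module.finrank_pi_fintype] at h1
  simp only [Finset.sum_const, Finset.card_univ, Fintype.card_fin, smul_eq_mul] at h1
  have h2 : 0 < Module.finrank k U := Module.finrank_pos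
  nlinarith

/-- The action on an invariant subspace. -/
def subRep {G : Type*} [Group G] (ρ : G →* (U ≃ₗ[k] U)) (S : Submodule k U)
    (hS : ∀ g, ∀ s ∈ S, ρ g s ∈ S) : G →* (S ≃ₗ[k] S) where
  toFun g :=
    { toFun := fun s => ⟨ρ g s, hS g s s.2⟩
      map_add' := fun x y => Subtype.ext (map_add (ρ g) _ _)
      map_smul' := fun c x => Subtype.ext (map_smul (ρ g) _ _)
      invFun := fun s => ⟨ρ g⁻¹ s, hS g⁻¹ s s.2⟩
      left_inv := fun s => Subtype.ext (by
        show ρ g⁻¹ (ρ g s) = s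
        rw [← LinearEquiv.mul_apply, ← map_mul, inv_mul_cancel, map_one]; rfl)
      right_inv := fun s => Subtype.ext (by
        show ρ g (ρ g⁻¹ s) = s
        rw [← LinearEquiv.mul_apply, ← map_mul, mul_inv_cancel, map_one]; rfl) }
  map_one' := LinearEquiv.ext fun s => Subtype.ext (by
    show ρ 1 s = s
    rw [map_one]; rfl)
  map_mul' g h := LinearEquiv.ext fun s => Subtype.ext (by
    show ρ (g * h) s = ρ g (ρ h s)
    rw [map_mul]; rfl)

/-- Commuting elements of the commutant of an irreducible set of maps of a finite space. -/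
theorem comm_of_irr [Finite U] [Nontrivial U] (A : Set (Module.End k U))
    (hirr : ∀ W : Submodule k U, (∀ a ∈ A, ∀ w ∈ W, a w ∈ W) → W = ⊥ ∨ W = ⊤)
    {x y : Module.End k U} (hx : ∀ a ∈ A, a * x = x * a) (hy : ∀ a ∈ A, a * y = y * a) : x * y = y * x := by
  let D := Subring.centralizer A
  have hxD : x ∈ D := Subring.mem_centralizer_iff.mpr hx
  have hyD : y ∈ D := Subring.mem_centralizer_iff.mpr hy
  have : Finite (Module.End k U) := Finite.of_injective (fun f : Module.End k U => (f : U → U)) DFunLike.coe_injective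
  have : Finite D := inferInstance
  have : NoZeroDivisors D := by
    refine ⟨fun {a b} hab => ?_⟩
    by_cases ha : a = 0
    · exact Or.inl ha
    · right
      have hker : LinearMap.ker (a : Module.End k U) = ⊥ := by
        rcases hirr (LinearMap.ker (a : Module.End k U)) (by
          intro c hc w hw
          rw [LinearMap.mem_ker] at hw ⊢
          have h1 : (a : Module.End k U) (c w) = c ((a : Module.End k U) w) := by
            have := congrArg (fun f : Module.End k U => f w) (Subring.mem_centralizer_iff.mp a.2 c hc)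
            exact this.symm
          rw [h1, hw, map_zero]) with h | h
        · exact h
        · exact absurd (Subtype.ext (LinearMap.ker_eq_top.mp h)) ha
      apply Subtype.ext
      apply LinearMap.ext
      intro u
      have h1 : (a : Module.End k U) ((b : Module.End k U) u) = 0 := by
        have := congrArg (fun f : D => (f : Module.End k U) u) hab
        exact this
      have h2 : (b : Module.End k U) u ∈ LinearMap.ker (a : Module.End k U) := h1
      rw [hker, Submodule.mem_bot] at h2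
      exact h2
  have : Nontrivial D := ⟨⟨0, 1, fun h => by
    obtain ⟨u, hu⟩ := exists_ne (0 : U)
    apply hu
    have := congrArg (fun f : D => (f : Module.End k U) u) h
    exact this.symm⟩⟩
  have : IsDomain D := NoZeroDivisors.to_isDomain D
  have hF := Finite.isDomain_to_isField D
  have := hF.mul_comm ⟨x, hxD⟩ ⟨y, hyD⟩
  exact congrArg Subtype.val this

end Gen

section Lin

variable {p : ℕ} [Fact p.Prime] {V : Type} [AddCommGroup V] [Module (ZMod p) V]

theorem mul_ap (x y : V ≃ₗ[ZMod p] V) (v : V) : (x * y) v = x (y v) := rfl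

/-- Elements of the product of the components normalise every component. -/
theorem conj_mem {t : ℕ} (E : Fin t → Subgroup (V ≃ₗ[ZMod p] V))
    (hc : ∀ i j, i ≠ j → ∀ x ∈ E i, ∀ y ∈ E j, x * y = y * x) (s : Fin t) {y : V ≃ₗ[ZMod p] V}
    (hy : y ∈ ⨆ j, E j) : ∀ e ∈ E s, y * e * y⁻¹ ∈ E s := by
  refine Subgroup.iSup_induction E (C := fun y => ∀ e ∈ E s, y * e * y⁻¹ ∈ E s) hy ?_ ?_ ?_
  · intro j x hx e he
    by_cases h : j = s
    · subst h
      exact mul_mem (mul_mem hx he) (inv_mem hx)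
    · rw [hc j s h x hx e he, mul_inv_cancel_right]
      exact he
  · intro e he
    simpa using he
  · intro x y hx hy e he
    have h1 := hx _ (hy e he)
    have h2 : x * y * e * (x * y)⁻¹ = x * (y * e * y⁻¹) * x⁻¹ := by group
    rw [h2]
    exact h1

/-- The product of the components is normal. -/
theorem conj_iSup {X : Subgroup (V ≃ₗ[ZMod p] V)} {t : ℕ} (E : Fin t → Subgroup (V ≃ₗ[ZMod p] V))
    (hE : ∀ x ∈ X, ∀ i, ∃ j, ∀ y, y ∈ E i ↔ x * y * x⁻¹ ∈ E j) :
    ∀ x ∈ X, ∀ y ∈ ⨆ j, E j, x * y * x⁻¹ ∈ ⨆ j, E j := by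
  intro x hx y hy
  refine Subgroup.iSup_induction E (C := fun y => x * y * x⁻¹ ∈ ⨆ j, E j) hy ?_ ?_ ?_
  · intro i y hy
    obtain ⟨j, hj⟩ := hE x hx i
    exact Subgroup.mem_iSup_of_mem j ((hj y).mp hy)
  · rw [mul_one, mul_inv_cancel]
    exact one_mem _
  · intro a b ha hb
    have : x * (a * b) * x⁻¹ = (x * a * x⁻¹) * (x * b * x⁻¹) := by group
    rw [this]
    exact mul_mem ha hb

section Main

variable {X A C R : Subgroup (V ≃ₗ[ZMod p] V)} {t : ℕ} {E : Fin t → Subgroup (V ≃ₗ[ZMod p] V)}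
  {U : Type} [AddCommGroup U] [Module (ZMod p) U] {M : ℕ}
  {ρ : (⨆ j, E j : Subgroup (V ≃ₗ[ZMod p] V)) →* (U ≃ₗ[ZMod p] U)} {φ : V ≃ₗ[ZMod p] (Fin M → U)}

/-- A component has no fixed vectors. -/
theorem fix_zero (hS : Str X A C R t E) (h : HomDec (⨆ j, E j) M ρ φ) (s : Fin t) {v : V}
    (hv : ∀ e ∈ E s, e v = v) : v = 0 := by
  have hle : E s ≤ ⨆ j, E j := le_iSup E s
  let W : Submodule (ZMod p) U :=
    { carrier := {u | ∀ e (he : e ∈ E s), ρ ⟨e, hle he⟩ u = u}
      add_mem' := fun {a b} ha hb e he => by rw [map_add, ha e he, hb e he]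
      zero_mem' := fun e he => map_zero _
      smul_mem' := fun c a ha e he => by rw [map_smul, ha e he] }
  rcases h.irr W (by
    intro y w hw e he
    have h1 : y⁻¹.1 * e * y⁻¹.1⁻¹ ∈ E s := conj_mem E hS.Ecomm s (y⁻¹).2 e he
    have h2 : (⟨e, hle he⟩ : (⨆ j, E j : Subgroup (V ≃ₗ[ZMod p] V))) * y =
        y * ⟨y⁻¹.1 * e * y⁻¹.1⁻¹, hle h1⟩ := by
      apply Subtype.ext
      show e * y.1 = y.1 * (y.1⁻¹ * e * y.1⁻¹⁻¹)
      group
    calc ρ ⟨e, hle he⟩ (ρ y w) = ρ (⟨e, hle he⟩ * y) w := by rw [map_mul]; rfl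
      _ = ρ y (ρ ⟨y⁻¹.1 * e * y⁻¹.1⁻¹, hle h1⟩ w) := by rw [h2, map_mul]; rfl
      _ = ρ y w := by rw [hw _ h1]) with hW | hW
  · have h1 : φ v = 0 := by
      funext k
      have : φ v k ∈ W := fun e he => by
        rw [← h.eq ⟨e, hle he⟩ v k]
        show φ (e v) k = φ v k
        rw [hv e he]
      rw [hW, Submodule.mem_bot] at this
      exact this
    exact (LinearEquiv.map_eq_zero_iff φ).mp h1
  · exfalso
    have h1 : ∀ e ∈ E s, e = 1 := by
      intro e he
      apply LinearEquiv.ext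
      intro w
      apply φ.injective
      funext k
      have h2 : φ w k ∈ W := by rw [hW]; trivial
      have h3 := h.eq ⟨e, hle he⟩ w k
      rw [h2 e he] at h3
      exact h3
    obtain ⟨x, y, hxy⟩ := hS.Enab s
    apply hxy
    have hsub : Subsingleton (E s) := ⟨fun a b => Subtype.ext ((h1 a a.2).trans (h1 b b.2).symm)⟩
    exact Subsingleton.elim _ _

/-- `V` restricted to a component is homogeneous. -/
theorem comp_hom [Finite V] (hX : PrimLin X) (hS : Str X A C R t E) (h : HomDec (⨆ j, E j) M ρ φ)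
    (i : Fin t) : ∃ (U' : Type) (_ : AddCommGroup U') (_ : Module (ZMod p) U') (M' : ℕ)
      (ρ' : E i →* (U' ≃ₗ[ZMod p] U')) (φ' : V ≃ₗ[ZMod p] (Fin M' → U')), HomDec (E i) M' ρ' φ' := by
  classical
  have hle : E i ≤ ⨆ j, E j := le_iSup E i
  have hM : ∃ k : Fin M, True := by
    by_contra hcon
    push Not at hcon
    obtain ⟨v, hv⟩ := hX.nt
    apply hv
    apply φ.injective
    funext k
    exact (hcon k).elim
  obtain ⟨k0, -⟩ := hM
  have hfU : FiniteDimensional (ZMod p) U := by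
    refine Module.Finite.of_injective (φ.symm.toLinearMap ∘ₗ LinearMap.single (ZMod p) (fun _ : Fin M => U) k0) ?_
    intro a b hab
    have h1 := φ.symm.injective hab
    have h2 := congrFun h1 k0
    simpa using h2
  let τ : E i →* (U ≃ₗ[ZMod p] U) := ρ.comp (Subgroup.inclusion hle)
  obtain ⟨S, -, hIS, hS0, hmin⟩ := exists_irr (k := ZMod p) (U := U)
    (fun W => ∀ e : E i, ∀ w ∈ W, τ e w ∈ W) ⊤ (fun _ _ _ => trivial) (by
      obtain ⟨u, hu⟩ := h.nt
      intro hbt
      apply hu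
      have : u ∈ (⊤ : Submodule (ZMod p) U) := trivial
      rw [hbt] at this
      exact this)
  have hnt : Nontrivial S := Submodule.nontrivial_iff_ne_bot.mpr hS0
  let σ := subRep τ S hIS
  have hirr : ∀ W : Submodule (ZMod p) S, (∀ e : E i, ∀ w ∈ W, σ e w ∈ W) → W = ⊥ ∨ W = ⊤ := by
    intro W hW
    rcases hmin (W.map S.subtype) (Submodule.map_subtype_le S W) (by
      rintro e _ ⟨w, hw, rfl⟩
      exact ⟨σ e w, hW e w hw, rfl⟩) with h1 | h1
    · left
      rw [eq_bot_iff]
      intro w hw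
      have : (w : U) ∈ W.map S.subtype := ⟨w, hw, rfl⟩
      rw [h1, Submodule.mem_bot] at this
      exact Subtype.ext this
    · right
      rw [eq_top_iff]
      rintro w -
      have : (w : U) ∈ W.map S.subtype := by rw [h1]; exact w.2
      obtain ⟨w', hw', he⟩ := this
      have : w' = w := Subtype.ext he
      rw [← this]
      exact hw'
  -- the translates of `S` by elements of the product commuting with `E i` span `U`
  let Cc := {c : (⨆ j, E j : Subgroup (V ≃ₗ[ZMod p] V)) // ∀ e ∈ E i, c.1 * e = e * c.1}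
  let T : Submodule (ZMod p) U := ⨆ c : Cc, S.map (ρ c.1).toLinearMap
  have hTinv : ∀ y (hy : y ∈ ⨆ j, E j), ∀ u ∈ T, ρ ⟨y, hy⟩ u ∈ T := by
    intro y hy
    refine Subgroup.iSup_induction' E (C := fun y hy => ∀ u ∈ T, ρ ⟨y, hy⟩ u ∈ T) ?_ ?_ ?_ hy
    · intro j x hx u hu
      refine Submodule.iSup_induction (fun c : Cc => S.map (ρ c.1).toLinearMap)
        (motive := fun u => ρ ⟨x, Subgroup.mem_iSup_of_mem j hx⟩ u ∈ T) hu ?_ ?_ ?_
      · rintro c _ ⟨w, hw, rfl⟩
        by_cases hj : j = i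
        · subst hj
          have h1 : ρ ⟨x, Subgroup.mem_iSup_of_mem j hx⟩ (ρ c.1 w) = ρ c.1 (τ ⟨x, hx⟩ w) := by
            have h2 : (⟨x, Subgroup.mem_iSup_of_mem j hx⟩ : (⨆ j, E j : Subgroup (V ≃ₗ[ZMod p] V))) * c.1 =
                c.1 * ⟨x, Subgroup.mem_iSup_of_mem j hx⟩ := Subtype.ext (c.2 x hx).symm
            calc ρ ⟨x, Subgroup.mem_iSup_of_mem j hx⟩ (ρ c.1 w)
                = ρ (⟨x, Subgroup.mem_iSup_of_mem j hx⟩ * c.1) w := by rw [map_mul]; rfl
              _ = ρ c.1 (ρ ⟨x, Subgroup.mem_iSup_of_mem j hx⟩ w) := by rw [h2, map_mul]; rfl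
          refine Submodule.mem_iSup_of_mem c ?_
          exact ⟨τ ⟨x, hx⟩ w, hIS _ _ hw, h1.symm⟩
        · refine Submodule.mem_iSup_of_mem (⟨⟨x, Subgroup.mem_iSup_of_mem j hx⟩ * c.1, ?_⟩ : Cc) ?_
          · intro e he
            show x * c.1.1 * e = e * (x * c.1.1)
            rw [mul_assoc, c.2 e he, ← mul_assoc, ← mul_assoc, hS.Ecomm j i hj x hx e he]
          · refine ⟨w, hw, ?_⟩
            show ρ (⟨x, Subgroup.mem_iSup_of_mem j hx⟩ * c.1) w = _
            rw [map_mul]; rfl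
      · rw [map_zero]
        exact zero_mem _
      · intro a b ha hb
        rw [map_add]
        exact add_mem ha hb
    · intro u hu
      have : (⟨1, one_mem _⟩ : (⨆ j, E j : Subgroup (V ≃ₗ[ZMod p] V))) = 1 := rfl
      rw [this, map_one]
      exact hu
    · intro x y hx hy ihx ihy u hu
      have : (⟨x * y, mul_mem hx hy⟩ : (⨆ j, E j : Subgroup (V ≃ₗ[ZMod p] V))) = ⟨x, hx⟩ * ⟨y, hy⟩ := rfl
      rw [this, map_mul]
      exact ihx _ (ihy u hu)
  have hT : T = ⊤ := by
    rcases h.irr T (fun y w hw => hTinv y.1 y.2 w hw) with h1 | h1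
    · exfalso
      apply hS0
      rw [eq_bot_iff, ← h1]
      intro s hs
      refine Submodule.mem_iSup_of_mem (⟨1, fun e he => by simp⟩ : Cc) ⟨s, hs, ?_⟩
      show ρ 1 s = s
      rw [map_one]; rfl
    · exact h1
  obtain ⟨M', φ', hφ'⟩ := dec (k := ZMod p) (U := S) (V := V) (G := E i)
    (fun e => ((e : V ≃ₗ[ZMod p] V) : V →ₗ[ZMod p] V)) (fun e => ((σ e : S ≃ₗ[ZMod p] S) : S →ₗ[ZMod p] S))
    hirr (ι := Fin M × Cc)
    (fun q => φ.symm.toLinearMap ∘ₗ LinearMap.single (ZMod p) (fun _ : Fin M => U) q.1 ∘ₗ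
      (ρ q.2.1).toLinearMap ∘ₗ S.subtype) (by
      rintro ⟨k, c⟩ e s
      apply φ.injective
      funext j
      have h1 := h.eq ⟨e, hle e.2⟩ (φ.symm (Pi.single k (ρ c.1 s))) j
      have h2 : ρ ⟨e, hle e.2⟩ (ρ c.1 (s : U)) = ρ c.1 ((σ e s : S) : U) := by
        have h3 : (⟨e, hle e.2⟩ : (⨆ j, E j : Subgroup (V ≃ₗ[ZMod p] V))) * c.1 = c.1 * ⟨e, hle e.2⟩ :=
          Subtype.ext (c.2 e e.2).symm
        calc ρ ⟨e, hle e.2⟩ (ρ c.1 (s : U)) = ρ (⟨e, hle e.2⟩ * c.1) s := by rw [map_mul]; rfl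
          _ = ρ c.1 (ρ ⟨e, hle e.2⟩ s) := by rw [h3, map_mul]; rfl
      show φ ((e : V ≃ₗ[ZMod p] V) (φ.symm (Pi.single k (ρ c.1 (s : U))))) j =
        φ (φ.symm (Pi.single k (ρ c.1 ((σ e s : S) : U)))) j
      rw [h1, LinearEquiv.apply_symm_apply, LinearEquiv.apply_symm_apply]
      by_cases hjk : j = k
      · subst hjk
        rw [Pi.single_eq_same, Pi.single_eq_same, h2]
      · rw [Pi.single_eq_of_ne hjk, Pi.single_eq_of_ne hjk, map_zero]) (by
      rw [eq_top_iff]
      rintro v -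
      have hv : v = ∑ k, φ.symm (Pi.single k (φ v k)) := by
        apply φ.injective
        rw [map_sum]
        simp only [LinearEquiv.apply_symm_apply]
        exact (Finset.univ_sum_single (φ v)).symm
      rw [hv]
      refine Submodule.sum_mem _ fun k _ => ?_
      have hu : φ v k ∈ T := by rw [hT]; trivial
      refine Submodule.iSup_induction (fun c : Cc => S.map (ρ c.1).toLinearMap)
        (motive := fun u => φ.symm (Pi.single k u) ∈ ⨆ q : Fin M × Cc, LinearMap.range
          (φ.symm.toLinearMap ∘ₗ LinearMap.single (ZMod p) (fun _ : Fin M => U) q.1 ∘ₗ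
            (ρ q.2.1).toLinearMap ∘ₗ S.subtype)) hu ?_ ?_ ?_
      · rintro c _ ⟨w, hw, rfl⟩
        exact Submodule.mem_iSup_of_mem (k, c) ⟨⟨w, hw⟩, rfl⟩
      · rw [Pi.single_zero, map_zero]
        exact zero_mem _
      · intro a b ha hb
        rw [Pi.single_add, map_add]
        exact add_mem ha hb)
  exact ⟨S, inferInstance, inferInstance, M', σ, φ',
    ⟨fun e v j => hφ' e v j, hirr, (exists_ne (0 : S))⟩⟩

/-- `W` is invariant under the components in `S`. -/
def Inv (E : Fin t → Subgroup (V ≃ₗ[ZMod p] V)) (S : Finset (Fin t)) (W : Submodule (ZMod p) V) : Prop :=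
  ∀ j ∈ S, ∀ e ∈ E j, ∀ w ∈ W, e w ∈ W

/-- A component does not act on an irreducible subspace of a product of other components. -/
theorem not_inv [Finite V] (hS : Str X A C R t E) (hfix : ∀ s v, (∀ e ∈ E s, e v = v) → v = 0)
    (S : Finset (Fin t)) (s : Fin t) (hs : s ∉ S) (W : Submodule (ZMod p) V) (h0 : W ≠ ⊥)
    (hI : Inv E S W) (hmin : ∀ W' ≤ W, Inv E S W' → W' = ⊥ ∨ W' = W) :
    ∃ e ∈ E s, ∃ w ∈ W, e w ∉ W := by
  by_contra hcon
  push Not at hcon
  have hnt : Nontrivial W := Submodule.nontrivial_iff_ne_bot.mpr h0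
  let r : ∀ e ∈ E s, Module.End (ZMod p) W := fun e he =>
    ((e : V ≃ₗ[ZMod p] V) : V →ₗ[ZMod p] V).restrict (fun w hw => hcon e he w hw)
  let Aset : Set (Module.End (ZMod p) W) := {a | ∃ j ∈ S, ∃ e ∈ E j, ∀ w : W, ((a w : W) : V) = e w}
  have hirr : ∀ W' : Submodule (ZMod p) W, (∀ a ∈ Aset, ∀ w ∈ W', a w ∈ W') → W' = ⊥ ∨ W' = ⊤ := by
    intro W' hW'
    rcases hmin (W'.map W.subtype) (Submodule.map_subtype_le W W') (by
      rintro j hj e he _ ⟨w, hw, rfl⟩
      let a : Module.End (ZMod p) W :=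
        ((e : V ≃ₗ[ZMod p] V) : V →ₗ[ZMod p] V).restrict (fun w hw => hI j hj e he w hw)
      exact ⟨a w, hW' a ⟨j, hj, e, he, fun _ => rfl⟩ w hw, rfl⟩) with h1 | h1
    · left
      rw [eq_bot_iff]
      intro w hw
      have : (w : V) ∈ W'.map W.subtype := ⟨w, hw, rfl⟩
      rw [h1, Submodule.mem_bot] at this
      exact Subtype.ext this
    · right
      rw [eq_top_iff]
      rintro w -
      have : (w : V) ∈ W'.map W.subtype := by rw [h1]; exact w.2
      obtain ⟨w', hw', he⟩ := this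
      have : w' = w := Subtype.ext he
      rw [← this]
      exact hw'
  have hcm : ∀ e (he : e ∈ E s), ∀ a ∈ Aset, a * r e he = r e he * a := by
    rintro e he a ⟨j, hj, e', he', ha⟩
    apply LinearMap.ext
    intro w
    apply Subtype.ext
    show ((a (r e he w) : W) : V) = e ((a w : W) : V)
    rw [ha, ha]
    show e' (e (w : V)) = e (e' (w : V))
    have hjs : j ≠ s := fun h => hs (h ▸ hj)
    have := hS.Ecomm j s hjs e' he' e he
    exact congrArg (fun f : V ≃ₗ[ZMod p] V => f (w : V)) this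
  have hxy : ∀ x ∈ E s, ∀ y ∈ E s, ∀ w ∈ W, x (y w) = y (x w) := by
    intro x hx y hy w hw
    have := comm_of_irr Aset hirr (hcm x hx) (hcm y hy)
    exact congrArg (fun f : Module.End (ZMod p) W => ((f ⟨w, hw⟩ : W) : V)) this
  have hK : ∀ g : E s, ∀ w ∈ W, (g : V ≃ₗ[ZMod p] V) w = w := by
    let K : Subgroup (E s) :=
      { carrier := {g | ∀ w ∈ W, (g : V ≃ₗ[ZMod p] V) w = w}
        mul_mem' := fun {a b} ha hb w hw => by
          show (a : V ≃ₗ[ZMod p] V) ((b : V ≃ₗ[ZMod p] V) w) = w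
          rw [hb w hw, ha w hw]
        one_mem' := fun w hw => rfl
        inv_mem' := fun {a} ha w hw => by
          show (a : V ≃ₗ[ZMod p] V)⁻¹ w = w
          have h1 := ha w hw
          conv_lhs => rw [← h1]
          show ((a : V ≃ₗ[ZMod p] V)⁻¹ * (a : V ≃ₗ[ZMod p] V)) w = w
          rw [inv_mul_cancel]; rfl }
    have h1 : commutator (E s) ≤ K := by
      rw [commutator_def, Subgroup.commutator_le]
      intro x _ y _ w hw
      show ((x : V ≃ₗ[ZMod p] V) * y * (x : V ≃ₗ[ZMod p] V)⁻¹ * (y : V ≃ₗ[ZMod p] V)⁻¹) w = w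
      have h2 := hcon _ (inv_mem y.2) w hw
      have h3 := hxy _ (inv_mem x.2) _ y.2 _ h2
      have h4 : (y : V ≃ₗ[ZMod p] V) ((y : V ≃ₗ[ZMod p] V)⁻¹ w) = w := by
        show ((y : V ≃ₗ[ZMod p] V) * (y : V ≃ₗ[ZMod p] V)⁻¹) w = w
        rw [mul_inv_cancel]; rfl
      show (x : V ≃ₗ[ZMod p] V) ((y : V ≃ₗ[ZMod p] V) ((x : V ≃ₗ[ZMod p] V)⁻¹ ((y : V ≃ₗ[ZMod p] V)⁻¹ w))) = w
      rw [← h3, h4]
      show ((x : V ≃ₗ[ZMod p] V) * (x : V ≃ₗ[ZMod p] V)⁻¹) w = w
      rw [mul_inv_cancel]; rfl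
    rw [hS.Eperf s] at h1
    exact fun g => h1 (Subgroup.mem_top g)
  apply h0
  rw [eq_bot_iff]
  intro w hw
  exact hfix s w fun e he => hK ⟨e, he⟩ w hw

/-- The dimension of an irreducible subspace of a product of components. -/
theorem count [Finite V] (hS : Str X A C R t E) (hfix : ∀ s v, (∀ e ∈ E s, e v = v) → v = 0)
    (i : Fin t) {U' : Type} [AddCommGroup U'] [Module (ZMod p) U'] {M' : ℕ}
    {ρ' : E i →* (U' ≃ₗ[ZMod p] U')} {φ' : V ≃ₗ[ZMod p] (Fin M' → U')} (h : HomDec (E i) M' ρ' φ')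
    (S : Finset (Fin t)) : i ∉ S → ∀ W : Submodule (ZMod p) V, W ≠ ⊥ → Inv E (insert i S) W →
      (∀ W' ≤ W, Inv E (insert i S) W' → W' = ⊥ ∨ W' = W) →
      2 ^ S.card * Module.finrank (ZMod p) U' ≤ Module.finrank (ZMod p) W := by
  classical
  induction S using Finset.induction_on with
  | empty =>
    intro _ W h0 hI hmin
    rw [Finset.card_empty, pow_zero, one_mul]
    obtain ⟨w, hw, hw0⟩ := W.ne_bot_iff.mp h0
    have hk : ∃ k, φ' w k ≠ 0 := by
      by_contra hcon
      push Not at hcon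
      exact hw0 ((LinearEquiv.map_eq_zero_iff φ').mp (funext hcon))
    obtain ⟨k, hk⟩ := hk
    let g : W →ₗ[ZMod p] U' := LinearMap.proj k ∘ₗ φ'.toLinearMap ∘ₗ W.subtype
    have hg : LinearMap.range g = ⊤ := by
      rcases h.irr (LinearMap.range g) (by
        rintro e _ ⟨w', rfl⟩
        refine ⟨⟨(e : V ≃ₗ[ZMod p] V) w', hI i (Finset.mem_insert_self _ _) e e.2 _ w'.2⟩, ?_⟩
        exact h.eq e w' k) with h1 | h1
      · exfalso
        apply hk
        have : g ⟨w, hw⟩ ∈ LinearMap.range g := ⟨_, rfl⟩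
        rw [h1, Submodule.mem_bot] at this
        exact this
      · exact h1
    have h1 := LinearMap.finrank_range_le g
    rw [hg, finrank_top] at h1
    exact h1
  | insert s S hsS ih =>
    intro hi W h0 hI hmin
    rw [Finset.mem_insert, not_or] at hi
    have hI' : Inv E (insert i S) W := fun j hj => hI j (by
      rw [Finset.mem_insert] at hj ⊢
      rcases hj with h1 | h1
      · exact Or.inl h1
      · exact Or.inr (Finset.mem_insert_of_mem h1))
    obtain ⟨W', hW'W, hIW', hW'0, hmin'⟩ := exists_irr (k := ZMod p) (Inv E (insert i S)) W hI' h0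
    have hs' : s ∉ insert i S := by
      rw [Finset.mem_insert, not_or]
      exact ⟨fun h1 => hi.1 h1.symm, hsS⟩
    have h1 := ih hi.2 W' hW'0 hIW' hmin'
    obtain ⟨e, he, w0, hw0, hew⟩ := not_inv hS hfix (insert i S) s hs' W' hW'0 hIW' hmin'
    let W2 := W'.map (e : V ≃ₗ[ZMod p] V).toLinearMap
    have hIW2 : Inv E (insert i S) W2 := by
      rintro j hj e' he' _ ⟨w, hw, rfl⟩
      refine ⟨e' w, hIW' j hj e' he' w hw, ?_⟩
      have hjs : j ≠ s := fun h => hs' (h ▸ hj)
      exact congrArg (fun f : V ≃ₗ[ZMod p] V => f w) (hS.Ecomm j s hjs e' he' e he).symm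
    have hd2 : Module.finrank (ZMod p) W2 = Module.finrank (ZMod p) W' := LinearEquiv.finrank_map_eq e W'
    have hinf : W' ⊓ W2 = ⊥ := by
      rcases hmin' (W' ⊓ W2) inf_le_left (fun j hj e' he' w hw =>
        ⟨hIW' j hj e' he' w hw.1, hIW2 j hj e' he' w hw.2⟩) with h2 | h2
      · exact h2
      · exfalso
        have h3 : W' ≤ W2 := by rw [← h2]; exact inf_le_right
        have h4 : W' = W2 := Submodule.eq_of_le_of_finrank_le h3 hd2.le
        apply hew
        rw [h4]
        exact ⟨w0, hw0, rfl⟩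
    have hW2W : W2 ≤ W := by
      rintro _ ⟨w, hw, rfl⟩
      exact hI s (Finset.mem_insert_of_mem (Finset.mem_insert_self _ _)) e he w (hW'W hw)
    have h3 := Submodule.finrank_sup_add_finrank_inf_eq W' W2
    rw [hinf, finrank_bot, add_zero, hd2] at h3
    have h4 : Module.finrank (ZMod p) ↥(W' ⊔ W2) ≤ Module.finrank (ZMod p) W :=
      Submodule.finrank_mono (sup_le hW'W hW2W)
    rw [Finset.card_insert_of_notMem hsS, pow_succ]
    nlinarith

/-- **D5** from the homogeneity of the product of the components. -/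
theorem comp_dec_of [Finite V] (hX : PrimLin X) (hS : Str X A C R t E) (h : HomDec (⨆ j, E j) M ρ φ)
    (i : Fin t) : ∃ (U' : Type) (_ : AddCommGroup U') (_ : Module (ZMod p) U') (M' : ℕ)
      (ρ' : E i →* (U' ≃ₗ[ZMod p] U')) (φ' : V ≃ₗ[ZMod p] (Fin M' → U')), HomDec (E i) M' ρ' φ' ∧
      2 ^ (t - 1) ≤ M' := by
  classical
  obtain ⟨U', i1, i2, M', ρ', φ', h'⟩ := comp_hom hX hS h i
  refine ⟨U', i1, i2, M', ρ', φ', h', ?_⟩
  have htop : (⊤ : Submodule (ZMod p) V) ≠ ⊥ := by
    obtain ⟨v, hv⟩ := hX.nt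
    intro hbt
    apply hv
    have : v ∈ (⊤ : Submodule (ZMod p) V) := trivial
    rw [hbt] at this
    exact this
  obtain ⟨W, -, hIW, hW0, hmin⟩ := exists_irr (k := ZMod p) (Inv E (insert i (Finset.univ.erase i))) ⊤
    (fun _ _ _ _ _ _ => trivial) htop
  have h1 := count hS (fun s v hv => fix_zero hS h s hv) i h' (Finset.univ.erase i)
    (Finset.notMem_erase i _) W hW0 hIW hmin
  rw [Finset.card_erase_of_mem (Finset.mem_univ i), Finset.card_univ, Fintype.card_fin] at h1
  have h2 : Module.finrank (ZMod p) W ≤ Module.finrank (ZMod p) V := Submodule.finrank_le W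
  have hM' : ∃ k : Fin M', True := by
    by_contra hcon
    push Not at hcon
    obtain ⟨v, hv⟩ := hX.nt
    apply hv
    apply φ'.injective
    funext k
    exact (hcon k).elim
  obtain ⟨k0, -⟩ := hM'
  have hfU : FiniteDimensional (ZMod p) U' := by
    refine Module.Finite.of_injective (φ'.symm.toLinearMap ∘ₗ
      LinearMap.single (ZMod p) (fun _ : Fin M' => U') k0) ?_
    intro a b hab
    have h1 := φ'.symm.injective hab
    have h2 := congrFun h1 k0
    simpa using h2
  have hntU : Nontrivial U' := by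
    obtain ⟨u, hu⟩ := h'.nt
    exact ⟨⟨u, 0, hu⟩⟩
  have h3 : Module.finrank (ZMod p) V = M' * Module.finrank (ZMod p) U' := by
    rw [LinearEquiv.finrank_eq φ', Module.finrank_pi_fintype]
    simp
  have h4 : 0 < Module.finrank (ZMod p) U' := Module.finrank_pos
  exact Nat.le_of_mul_le_mul_right (by rw [← h3]; exact h1.trans h2) h4

end Main

/-- **D5** (`comp_dec`) from the statement of D1 (`homDec_of_normal`) for the group. -/
theorem comp_dec_of_D1 [Finite V] (X : Subgroup (V ≃ₗ[ZMod p] V)) (hX : PrimLin X)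
    (D1 : ∀ (Y : Subgroup (V ≃ₗ[ZMod p] V)), Y ≤ X → (∀ x ∈ X, ∀ y ∈ Y, x * y * x⁻¹ ∈ Y) →
      ∃ (U : Type) (_ : AddCommGroup U) (_ : Module (ZMod p) U) (M : ℕ)
        (ρ : Y →* (U ≃ₗ[ZMod p] U)) (φ : V ≃ₗ[ZMod p] (Fin M → U)), HomDec Y M ρ φ)
    (A C R : Subgroup (V ≃ₗ[ZMod p] V)) (t : ℕ) (E : Fin t → Subgroup (V ≃ₗ[ZMod p] V))
    (hS : Str X A C R t E) (i : Fin t) :
    ∃ (U : Type) (_ : AddCommGroup U) (_ : Module (ZMod p) U) (M : ℕ)
      (ρ : E i →* (U ≃ₗ[ZMod p] U)) (φ : V ≃ₗ[ZMod p] (Fin M → U)), HomDec (E i) M ρ φ ∧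
      2 ^ (t - 1) ≤ M := by
  obtain ⟨U, i1, i2, M, ρ, φ, h⟩ := D1 (⨆ j, E j) (iSup_le fun j => (hS.EC j).trans hS.CX)
    (conj_iSup E hS.Eperm)
  exact comp_dec_of hX hS h i

end Lin

end Cfsg.Agent.H131.B57
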